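import Cfsg.Agent.H917.TC8.Defs
import Cfsg.Agent.H291.TC.Q3

/-!
# Box C of `PSp_8(q)`: `Forms3`
-/

set_option autoImplicit false

namespace Cfsg.Agent.H291.TC

/-- **box C** -/
theorem forms3 : Cfsg.Agent.H917.TC8.Forms3 := by
  intro F _ _ h2 T S hT hS h0
  exact Q3.concl h2 hT hS h0

end Cfsg.Agent.H291.TC
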